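import Cfsg.Agent.H92.S70.Invert
import Cfsg.Agent.H22.Fusion
import Cfsg.Agent.H19.Cores
import Cfsg.Agent.H40.KleinFour
import Cfsg.Agent.H35.SigFunTwo
import Cfsg.Agent.S0205
import Mathlib.GroupTheory.GroupAction.Quotient

/-!
# One class of involutions with complemented centralisers, Sylow subgroup of order sixteen
-/

set_option autoImplicit false
set_option linter.unusedSectionVars false

namespace Cfsg.Agent.H92.S70

open Cfsg Subgroup

universe u

variable {G : Type u} [Group G] [Finite G]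

/-- The centraliser of an element. -/
abbrev Cen (a : G) : Subgroup G := Subgroup.centralizer ({a} : Set G)

/-- The core of the centraliser. -/
def theta (a : G) : Subgroup G := (Cfsg.pPrimeCore 2 (Cen a)).map (Cen a).subtype

/-- The hypotheses: the normaliser is transitive on the involutions of the Sylow subgroup,
their centralisers have normal complements, and there is no odd normal subgroup. -/
structure Fifteen (P : Sylow 2 G) (x : G) : Prop where
  card : Nat.card P = 16
  sq : ∀ a ∈ (P : Subgroup G), a * a = 1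
  mem : x ∈ (P : Subgroup G)
  ne : x ≠ 1
  nil : ∀ v ∈ (P : Subgroup G), v ≠ 1 → HasNormalPComplement 2 (Cen v)
  trans : ∀ v ∈ (P : Subgroup G), v ≠ 1 →
    ∃ n ∈ normalizer ((P : Subgroup G) : Set G), n * x * n⁻¹ = v
  core : ∀ N : Subgroup G, N.Normal → Odd (Nat.card N) → N = ⊥

theorem orderOf_dvd_card {K : Subgroup G} {g : G} (hg : g ∈ K) : orderOf g ∣ Nat.card K :=
  Subgroup.orderOf_dvd_natCard K hg

theorem odd_orderOf {K : Subgroup G} (hK : Odd (Nat.card K)) {g : G} (hg : g ∈ K) :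
    Odd (orderOf g) :=
  hK.of_dvd_nat (orderOf_dvd_card hg)

theorem eq_one_of_odd_of_sq {g : G} (hg : Odd (orderOf g)) (h : g * g = 1) : g = 1 := by
  have h2 : orderOf g ∣ 2 := orderOf_dvd_of_pow_eq_one (by rw [pow_two, h])
  rcases (Nat.dvd_prime Nat.prime_two).1 h2 with h1 | h1
  · exact orderOf_eq_one_iff.1 h1
  · rw [h1] at hg; exact absurd hg (by decide)

theorem theta_le (a : G) : theta a ≤ Cen a := map_subtype_le _

theorem odd_card_theta (a : G) : Odd (Nat.card (theta a)) := by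
  rw [theta, card_map_of_injective (Cen a).subtype_injective]
  exact Nat.coprime_two_right.1 (H19.pPrimeCore_coprime 2)

namespace Fifteen

variable {P : Sylow 2 G} {x : G}

theorem comm (hD : Fifteen P x) : ∀ a ∈ (P : Subgroup G), ∀ b ∈ (P : Subgroup G), a * b = b * a := by
  intro a ha b hb
  calc a * b = (a * b)⁻¹ := (inv_eq_of_mul_eq_one_right (hD.sq _ (mul_mem ha hb))).symm
    _ = b * a := by
      rw [mul_inv_rev, inv_eq_of_mul_eq_one_right (hD.sq a ha),
        inv_eq_of_mul_eq_one_right (hD.sq b hb)]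

theorem inv_eq (hD : Fifteen P x) {a : G} (ha : a ∈ (P : Subgroup G)) : a⁻¹ = a :=
  inv_eq_of_mul_eq_one_right (hD.sq a ha)

theorem le_cen (hD : Fifteen P x) {a : G} (ha : a ∈ (P : Subgroup G)) :
    (P : Subgroup G) ≤ Cen a := fun b hb => mem_centralizer_singleton_iff.2 (hD.comm b hb a ha)

theorem mem_theta (hD : Fifteen P x) {a : G} (ha : a ∈ (P : Subgroup G)) (ha1 : a ≠ 1) {g : G} :
    g ∈ theta a ↔ g * a = a * g ∧ Odd (orderOf g) := by
  refine ⟨fun h => ⟨mem_centralizer_singleton_iff.1 (theta_le a h),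
    odd_orderOf (odd_card_theta a) h⟩, fun ⟨hc, ho⟩ => ?_⟩
  obtain ⟨Q, N, hN, hNc⟩ := hD.nil a ha ha1
  haveI := hN
  have hidx : N.index = 2 ^ (Nat.card (Cen a)).factorization 2 := by
    rw [hNc.symm.index_eq_card, Q.card_eq_multiplicity]
  have hNodd : ¬ 2 ∣ Nat.card N := fun hd => Q.not_dvd_index (by rwa [hNc.index_eq_card])
  set s : Cen a := ⟨g, mem_centralizer_singleton_iff.2 hc⟩ with hs
  have hsN : s ∈ N := by
    rw [← QuotientGroup.eq_one_iff, ← orderOf_eq_one_iff]
    have h1 : orderOf ((s : Cen a ⧸ N)) ∣ orderOf g :=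
      (Subgroup.orderOf_coe s).symm ▸ orderOf_map_dvd (QuotientGroup.mk' N) s
    have h2 : orderOf ((s : Cen a ⧸ N)) ∣ 2 ^ (Nat.card (Cen a)).factorization 2 := by
      rw [← hidx, Subgroup.index]
      exact orderOf_dvd_natCard _
    exact Nat.eq_one_of_dvd_coprimes
      ((Nat.coprime_two_right.2 ho).pow_right _) h1 h2
  exact ⟨s, H19.le_pPrimeCore hN
    ((Nat.prime_two.coprime_iff_not_dvd).2 hNodd).symm hsN, rfl⟩

/-- The centraliser is its core times the Sylow subgroup. -/
theorem split (hD : Fifteen P x) {a : G} (ha : a ∈ (P : Subgroup G)) (ha1 : a ≠ 1) :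
    Nat.card (theta a) * 16 = Nat.card (Cen a) ∧
      ∀ g ∈ Cen a, ∃ k ∈ theta a, ∃ v ∈ (P : Subgroup G), g = k * v := by
  set C := Cen a
  set K : Subgroup C := (theta a).subgroupOf C with hK
  set Q : Subgroup C := (P.subtype (hD.le_cen ha) : Subgroup C) with hQ
  have hKc : Nat.card K = Nat.card (theta a) :=
    Nat.card_congr (subgroupOfEquivOfLe (theta_le a)).toEquiv
  have hQc : Nat.card Q = 16 :=
    (Nat.card_congr (subgroupOfEquivOfLe (hD.le_cen ha)).toEquiv).trans hD.card
  have hcop : (Nat.card K).Coprime (Nat.card Q) := by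
    rw [hKc, hQc, show (16 : ℕ) = 2 ^ 4 by norm_num]
    exact (Nat.coprime_two_right.2 (odd_card_theta a)).pow_right _
  have hidx : Q.index ≤ Nat.card K := by
    obtain ⟨Q₀, N, hN, hNc⟩ := hD.nil a ha ha1
    have h1 : Q.index = Nat.card N := by
      have e : Q.index = (Q₀ : Subgroup C).index := by
        have h := (Q₀ : Subgroup C).card_mul_index
        have h' := Q.card_mul_index
        have e2 : Nat.card Q = Nat.card (Q₀ : Subgroup C) :=
          Nat.card_congr (Sylow.equiv (P.subtype (hD.le_cen ha)) Q₀).toEquiv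
        rw [e2, ← h] at h'
        exact Nat.eq_of_mul_eq_mul_left Nat.card_pos h'
      rw [e, hNc.index_eq_card]
    have h2 : N ≤ Cfsg.pPrimeCore 2 C := H19.le_pPrimeCore hN
      ((Nat.prime_two.coprime_iff_not_dvd).2 fun hd =>
        Q₀.not_dvd_index (by rwa [hNc.index_eq_card])).symm
    rw [h1, hKc, theta, card_map_of_injective C.subtype_injective]
    exact card_le_of_le h2
  have hle : Nat.card K * Nat.card Q ≤ Nat.card C :=
    Nat.le_of_dvd Nat.card_pos
      (hcop.mul_dvd_of_dvd_of_dvd (card_subgroup_dvd_card _) (card_subgroup_dvd_card _))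
  have heq : Nat.card K * Nat.card Q = Nat.card C := by
    refine le_antisymm hle ?_
    rw [← Q.card_mul_index, mul_comm]
    exact Nat.mul_le_mul_right _ hidx
  have hcomp : IsComplement' K Q := isComplement'_of_coprime heq hcop
  refine ⟨by rw [← hKc, ← hQc]; exact heq, fun g hg => ?_⟩
  obtain ⟨⟨k, v⟩, hkv⟩ := (hcomp.existsUnique (⟨g, hg⟩ : C)).exists
  exact ⟨k.1.1, mem_subgroupOf.1 k.2, v.1.1, mem_subgroupOf.1 v.2,
    (congrArg Subtype.val hkv).symm⟩

theorem conj_mem_theta (hD : Fifteen P x) {a n : G} (ha : a ∈ (P : Subgroup G)) (ha1 : a ≠ 1)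
    (hn : n ∈ normalizer ((P : Subgroup G) : Set G)) {g : G} :
    n * g * n⁻¹ ∈ theta (n * a * n⁻¹) ↔ g ∈ theta a := by
  rw [hD.mem_theta ha ha1, hD.mem_theta ((mem_normalizer_iff.1 hn a).1 ha)
    (fun h => ha1 (conj_eq_one_iff.1 h)), conj_mul, conj_mul,
    mul_left_inj, mul_right_inj]
  exact and_congr Iff.rfl (by rw [← MulAut.conj_apply, MulEquiv.orderOf_eq])

theorem card_theta (hD : Fifteen P x) {a : G} (ha : a ∈ (P : Subgroup G)) (ha1 : a ≠ 1) :
    Nat.card (theta a) = Nat.card (theta x) := by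
  obtain ⟨n, hn, rfl⟩ := hD.trans a ha ha1
  refine (Nat.card_congr (Equiv.subtypeEquiv (MulAut.conj n).toEquiv fun g => ?_)).symm
  exact (hD.conj_mem_theta hD.mem hD.ne hn).symm

theorem elementary (hD : Fifteen P x) : IsElementaryAbelian 2 (P : Subgroup G) :=
  ⟨⟨⟨fun a b => Subtype.ext (hD.comm a a.2 b b.2)⟩⟩, fun a ha => by rw [pow_two, hD.sq a ha]⟩

theorem functor (hD : Fifteen P x) :
    IsSolvableSignalizerFunctor 2 (P : Subgroup G) (theta : G → Subgroup G) := by
  refine ⟨⟨fun a _ _ => theta_le a, fun a _ _ => ?_, fun a ha ha1 b hb g hg => ?_,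
    fun a _ _ b hb hb1 g hg => ?_⟩, fun a _ _ => ?_⟩
  · rw [← even_iff_two_dvd, Nat.not_even_iff_odd]; exact odd_card_theta a
  · have h := (hD.conj_mem_theta ha ha1 (le_normalizer hb)).2 hg
    rwa [show b * a * b⁻¹ = a by rw [hD.comm b hb a ha, mul_inv_cancel_right]] at h
  · obtain ⟨h1, h2⟩ := mem_inf.1 hg
    exact (hD.mem_theta hb hb1).2
      ⟨mem_centralizer_singleton_iff.1 h2, odd_orderOf (odd_card_theta a) h1⟩
  · exact S0205.result (odd_card_theta a)

/-- The completion. -/
abbrev comp (P : Sylow 2 G) : Subgroup G := signalizerClosure (P : Subgroup G) theta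

theorem theta_le_comp {a : G} (ha : a ∈ (P : Subgroup G)) (ha1 : a ≠ 1) : theta a ≤ comp P :=
  le_iSup (fun b : {b : G // b ∈ (P : Subgroup G) ∧ b ≠ 1} => theta (b : G)) ⟨a, ha, ha1⟩

theorem odd_card_comp (hD : Fifteen P x) : Odd (Nat.card (comp P)) ∧
    (∀ a ∈ (P : Subgroup G), a ≠ 1 → comp P ⊓ Cen a = theta a) ∧
    ∀ b ∈ (P : Subgroup G), ∀ u ∈ comp P, b * u * b⁻¹ ∈ comp P := by
  obtain ⟨h1, h2, -⟩ := H35.SigFun.solvable_signalizer_functor_two hD.elementary
    (by rw [hD.card]; norm_num) hD.functor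
  refine ⟨?_, h2, h1.2.2.1⟩
  rw [← Nat.not_even_iff_odd, even_iff_two_dvd]
  exact h1.2.1

/-- The subgroup that will be strongly embedded. -/
abbrev big (P : Sylow 2 G) : Subgroup G := normalizer ((comp P : Subgroup G) : Set G)

theorem normalizer_le_big (hD : Fifteen P x) :
    normalizer ((P : Subgroup G) : Set G) ≤ big P := by
  intro n hn
  have key : ∀ m ∈ normalizer ((P : Subgroup G) : Set G),
      ∀ g ∈ comp P, m * g * m⁻¹ ∈ comp P := by
    intro m hm g hg
    suffices comp P ≤ (comp P).comap (MulAut.conj m).toMonoidHom from this hg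
    refine iSup_le fun a => fun g hg => ?_
    have hma : m * (a : G) * m⁻¹ ∈ (P : Subgroup G) := (mem_normalizer_iff.1 hm _).1 a.2.1
    exact theta_le_comp hma (fun h => a.2.2 (conj_eq_one_iff.1 h))
      ((hD.conj_mem_theta a.2.1 a.2.2 hm).2 hg)
  refine mem_normalizer_iff.2 fun g => ⟨key n hn g, fun h => ?_⟩
  have := key n⁻¹ (inv_mem hn) _ h
  simpa [mul_assoc] using this

theorem cen_le_big (hD : Fifteen P x) {a : G} (ha : a ∈ (P : Subgroup G)) (ha1 : a ≠ 1) :
    Cen a ≤ big P := by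
  intro g hg
  obtain ⟨k, hk, v, hv, rfl⟩ := (hD.split ha ha1).2 g hg
  exact mul_mem (le_normalizer (theta_le_comp ha ha1 hk))
    (hD.normalizer_le_big (le_normalizer hv))

theorem le_big (hD : Fifteen P x) : (P : Subgroup G) ≤ big P :=
  le_normalizer.trans hD.normalizer_le_big

/-- An involution of the Sylow subgroup fixes one coset. -/
theorem mem_big_of_conj (hD : Fifteen P x) {t g : G} (ht : t ∈ (P : Subgroup G)) (ht1 : t ≠ 1)
    (hg : g⁻¹ * t * g ∈ big P) : g ∈ big P := by
  set H := big P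
  set s : H := ⟨_, hg⟩ with hs
  have hs2 : s * s = 1 := Subtype.ext (by
    show g⁻¹ * t * g * (g⁻¹ * t * g) = 1
    rw [show g⁻¹ * t * g * (g⁻¹ * t * g) = g⁻¹ * (t * t) * g by simp [mul_assoc], hD.sq t ht]
    simp)
  have hp : IsPGroup 2 (zpowers s) := by
    rintro ⟨y, hy⟩
    obtain ⟨z, rfl⟩ := mem_zpowers_iff.1 hy
    refine ⟨1, Subtype.ext ?_⟩
    show (s ^ z) ^ (2 ^ 1) = 1
    rw [pow_one, ← zpow_natCast, ← zpow_mul, mul_comm, zpow_mul, zpow_natCast, pow_two, hs2, one_zpow]
  obtain ⟨T, hT⟩ := hp.exists_le_sylow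
  obtain ⟨c, hc⟩ := MulAction.exists_smul_eq H T (P.subtype hD.le_big)
  have hcs : c * s * c⁻¹ ∈ (P.subtype hD.le_big : Subgroup H) := by
    rw [← hc]
    exact smul_mem_pointwise_smul s (MulAut.conj c) (T : Subgroup H) (hT (mem_zpowers s))
  have hmem : (c : G) * (g⁻¹ * t * g) * (c : G)⁻¹ ∈ (P : Subgroup G) := mem_subgroupOf.1 hcs
  set w : G := (c : G) * g⁻¹ with hw
  have hwt : w * t * w⁻¹ = (c : G) * (g⁻¹ * t * g) * (c : G)⁻¹ := by
    rw [hw]; simp [mul_assoc]
  obtain ⟨n, hn, hnw⟩ := H22.abelian_sylow_controls P hD.elementary.1 t ht w (hwt ▸ hmem)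
  have hC : n⁻¹ * w ∈ Cen t := by
    refine mem_centralizer_singleton_iff.2 ?_
    calc n⁻¹ * w * t = n⁻¹ * (w * t * w⁻¹) * w := by simp [mul_assoc]
      _ = n⁻¹ * (n * t * n⁻¹) * w := by rw [hnw]
      _ = t * (n⁻¹ * w) := by simp [mul_assoc]
  have hwH : w ∈ H := by
    have := mul_mem (hD.normalizer_le_big hn) (hD.cen_le_big ht ht1 hC)
    simpa using this
  have : g⁻¹ ∈ H := by
    have := mul_mem (inv_mem c.2) hwH
    simpa [hw] using this
  exact inv_inv g ▸ inv_mem this

/-- The index is one modulo sixteen. -/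
theorem index_mod (hD : Fifteen P x) : ∃ j, (big P).index = 16 * j + 1 := by
  classical
  set H := big P
  let X := {q : G ⧸ H // q ≠ (1 : G)}
  letI : MulAction (P : Subgroup G) X :=
    { smul := fun v q => ⟨(v : G) • q.1, fun h => q.2 (by
        have h' := congrArg (fun z => (v : G)⁻¹ • z) h
        simp only [inv_smul_smul] at h'
        rw [h']
        exact QuotientGroup.eq.2 (by simpa using H.inv_mem (H.inv_mem (hD.le_big v.2))))⟩
      one_smul := fun q => Subtype.ext (one_smul G q.1)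
      mul_smul := fun a b q => Subtype.ext (mul_smul (a : G) (b : G) q.1) }
  have hfree : ∀ q : X, MulAction.stabilizer (P : Subgroup G) q = ⊥ := by
    rintro ⟨q, hq⟩
    refine (eq_bot_iff_forall _).2 fun v hv => ?_
    by_contra hv1
    obtain ⟨g, rfl⟩ := QuotientGroup.mk_surjective q
    refine hq (QuotientGroup.eq.2 ?_)
    have hv' := congrArg Subtype.val (MulAction.mem_stabilizer_iff.1 hv)
    have h1 : (v : G) • (g : G ⧸ H) = (g : G ⧸ H) := hv'
    have h2 : g⁻¹ * (v : G) * g ∈ H := by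
      have := QuotientGroup.eq.1 h1.symm
      simpa [mul_assoc] using this
    simpa using inv_mem (hD.mem_big_of_conj v.2 (fun h => hv1 (Subtype.ext h)) h2)
  have hX : 16 ∣ Nat.card X := by
    rw [Nat.card_congr (MulAction.selfEquivOrbitsQuotientProd hfree), Nat.card_prod, hD.card]
    exact Dvd.intro_left _ rfl
  obtain ⟨j, hj⟩ := hX
  refine ⟨j, ?_⟩
  haveI := Fintype.ofFinite (G ⧸ H)
  have : Nat.card X + 1 = H.index := by
    rw [Subgroup.index, Nat.card_eq_fintype_card, Nat.card_eq_fintype_card,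
      Fintype.card_subtype_compl, Fintype.card_subtype_eq]
    have : 0 < Fintype.card (G ⧸ H) := Fintype.card_pos
    omega
  omega

/-- The order of the big subgroup. -/
theorem card_big_ge (hD : Fifteen P x) : 240 * Nat.card (comp P) ≤ Nat.card (big P) := by
  classical
  set W := comp P
  set N := normalizer ((P : Subgroup G) : Set G)
  set C := centralizer ((P : Subgroup G) : Set G)
  have hPC : (P : Subgroup G) ≤ C := fun a ha =>
    mem_centralizer_iff.2 fun b hb => hD.comm b hb a ha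
  have hWN : W ⊓ N ≤ C := by
    intro g hg
    obtain ⟨hgW, hgN⟩ := mem_inf.1 hg
    refine mem_centralizer_iff.2 fun a ha => ?_
    have h1 : a * g * a⁻¹ * g⁻¹ ∈ W := W.mul_mem (hD.odd_card_comp.2.2 a ha g hgW) (W.inv_mem hgW)
    have h2 : a * g * a⁻¹ * g⁻¹ ∈ (P : Subgroup G) := by
      rw [show a * g * a⁻¹ * g⁻¹ = a * (g * a⁻¹ * g⁻¹) by simp [mul_assoc]]
      exact mul_mem ha ((mem_normalizer_iff.1 hgN _).1 (inv_mem ha))
    have h3 := eq_one_of_odd_of_sq (odd_orderOf hD.odd_card_comp.1 h1) (hD.sq _ h2)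
    rw [mul_inv_eq_one, mul_inv_eq_iff_eq_mul] at h3
    exact h3
  have hWC : 16 * Nat.card ↥(W ⊓ N) ≤ Nat.card C := by
    refine Nat.le_of_dvd Nat.card_pos (Nat.Coprime.mul_dvd_of_dvd_of_dvd ?_ ?_ (card_dvd_of_le hWN))
    · rw [show (16 : ℕ) = 2 ^ 4 by norm_num]
      exact ((Nat.coprime_two_right.2
        (hD.odd_card_comp.1.of_dvd_nat (card_dvd_of_le inf_le_left))).pow_right _).symm
    · exact hD.card ▸ card_dvd_of_le hPC
  have hNC : 15 * Nat.card C ≤ Nat.card N := by
    let D := C.subgroupOf N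
    have h15 : 15 ≤ D.index := by
      let f : N ⧸ D → G := Quotient.lift (fun n : N => (n : G) * x * (n : G)⁻¹) fun a b hab => by
        have h := mem_subgroupOf.1 (QuotientGroup.leftRel_apply.1 hab)
        have h' := mem_centralizer_iff.1 h x hD.mem
        show (a : G) * x * (a : G)⁻¹ = (b : G) * x * (b : G)⁻¹
        symm
        calc (b : G) * x * (b : G)⁻¹
            = (a : G) * ((((a⁻¹ * b : N)) : G) * x) * (((a⁻¹ * b : N)) : G)⁻¹ * (a : G)⁻¹ := by
              simp [mul_assoc]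
          _ = (a : G) * x * (a : G)⁻¹ := by rw [← h']; simp [mul_assoc]
      haveI : Fintype (P : Subgroup G) := Fintype.ofFinite _
      have hsub : ((P : Subgroup G) : Set G) \ {1} ⊆ Set.range f := by
        rintro v ⟨hv, hv1⟩
        obtain ⟨n, hn, hnv⟩ := hD.trans v hv hv1
        exact ⟨QuotientGroup.mk (⟨n, hn⟩ : N), hnv⟩
      have h := Set.ncard_le_ncard hsub (Set.finite_range f)
      have hc : (((P : Subgroup G) : Set G) \ {1}).ncard = 15 := by
        rw [Set.ncard_diff_singleton_of_mem (one_mem (P : Subgroup G))]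
        rw [← Nat.card_coe_set_eq]
        show Nat.card (P : Subgroup G) - 1 = 15
        rw [hD.card]
      rw [hc] at h
      refine h.trans ?_
      rw [← Nat.card_coe_set_eq]
      exact Finite.card_range_le f
    have := D.card_mul_index
    rw [Nat.card_congr (subgroupOfEquivOfLe (centralizer_le_normalizer _)).toEquiv] at this
    rw [← this, mul_comm]
    exact Nat.mul_le_mul_left _ h15
  have hidx : (W.subgroupOf N).index ≤ (W.subgroupOf (big P)).index :=
    Subgroup.relIndex_le_of_le_right hD.normalizer_le_big Subgroup.index_ne_zero_of_finite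
  have e1 := (W.subgroupOf N).card_mul_index
  have e2 := (W.subgroupOf (big P)).card_mul_index
  rw [Nat.card_congr (subgroupOfEquivOfLe (le_normalizer)).toEquiv] at e2
  have e3 : Nat.card (W.subgroupOf N) = Nat.card ↥(W ⊓ N) :=
    (Nat.card_congr (Equiv.subtypeSubtypeEquivSubtypeInter (· ∈ N) (· ∈ W))).trans
      (Nat.card_congr (Equiv.subtypeEquivRight fun g => by
        rw [mem_inf]; exact and_comm))
  rw [e3] at e1
  have h240 : Nat.card ↥(W ⊓ N) * 240 ≤ Nat.card ↥(W ⊓ N) * (W.subgroupOf N).index := by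
    rw [e1]; omega
  rw [← e2, mul_comm 240]
  exact Nat.mul_le_mul_left _ ((Nat.le_of_mul_le_mul_left h240 Nat.card_pos).trans hidx)

end Fifteen

end Cfsg.Agent.H92.S70
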