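import Mathlib.GroupTheory.OrderOfElement
import Mathlib.GroupTheory.Subgroup.Center
import Mathlib.Algebra.Group.Subgroup.Finite
import Mathlib.Tactic.Group

/-!
# Elements inverted by an involution in a group of odd order
-/

set_option autoImplicit false

namespace Cfsg.Agent.H92.S70

variable {G : Type*} [Group G] [Finite G]

/-- The members of `K` inverted by `v`. -/
abbrev Inv' (v : G) (K : Subgroup G) : Type _ := {i : G // i ∈ K ∧ v * i * v⁻¹ = i⁻¹}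

theorem eq_of_sq_eq {K : Subgroup G} (hK : Odd (Nat.card K)) {a b : G} (ha : a ∈ K) (hb : b ∈ K)
    (h : a ^ 2 = b ^ 2) : a = b := by
  have h' : (⟨a, ha⟩ : K) ^ 2 = (⟨b, hb⟩ : K) ^ 2 := Subtype.ext h
  exact congrArg Subtype.val ((powCoprime (Nat.coprime_two_right.2 hK)).injective h')

/-- An involution splits an invariant subgroup of odd order. -/
theorem card_inv_mul {K : Subgroup G} (hK : Odd (Nat.card K)) {v : G} (hv : v * v = 1)
    (hvK : ∀ k ∈ K, v * k * v⁻¹ ∈ K) :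
    Nat.card (Inv' v K) * Nat.card ↥(K ⊓ Subgroup.centralizer ({v} : Set G)) = Nat.card K := by
  have hvi : v⁻¹ = v := inv_eq_of_mul_eq_one_right hv
  have hcv : ∀ c ∈ K ⊓ Subgroup.centralizer ({v} : Set G), v * c * v⁻¹ = c := fun c hc =>
    mul_inv_eq_iff_eq_mul.2
      (Subgroup.mem_centralizer_singleton_iff.1 (Subgroup.mem_inf.1 hc).2).symm
  rw [← Nat.card_prod]
  refine Nat.card_eq_of_bijective
    (fun q : Inv' v K × ↥(K ⊓ Subgroup.centralizer ({v} : Set G)) =>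
      (⟨(q.1 : G) * (q.2 : G), K.mul_mem q.1.2.1 (Subgroup.mem_inf.1 q.2.2).1⟩ : K)) ⟨?_, ?_⟩
  · rintro ⟨⟨i, hi, hiv⟩, ⟨c, hc⟩⟩ ⟨⟨j, hj, hjv⟩, ⟨d, hd⟩⟩ h
    have h1 : i * c = j * d := congrArg Subtype.val h
    have h2 : i⁻¹ * c = j⁻¹ * d := by
      have := congrArg (fun z => v * z * v⁻¹) h1
      simpa [← conj_mul, hiv, hjv, hcv c hc, hcv d hd] using this
    have h3 : i ^ 2 = j ^ 2 := by
      rw [pow_two, pow_two]
      calc i * i = (i * c) * (i⁻¹ * c)⁻¹ := by simp [mul_assoc]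
        _ = (j * d) * (j⁻¹ * d)⁻¹ := by rw [h1, h2]
        _ = j * j := by simp [mul_assoc]
    obtain rfl := eq_of_sq_eq hK hi hj h3
    obtain rfl := mul_left_cancel h1
    rfl
  · rintro ⟨s, hs⟩
    set t : G := s * (v * s * v⁻¹)⁻¹ with ht
    have htK : t ∈ K := K.mul_mem hs (K.inv_mem (hvK s hs))
    have htv : v * t * v⁻¹ = t⁻¹ := by
      rw [ht, hvi]
      simp only [mul_inv_rev, hvi, mul_assoc, inv_inv]
      simp only [← mul_assoc, hv, one_mul, mul_one]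
    obtain ⟨m, hm⟩ := hK
    set i : G := t ^ (m + 1) with hidef
    have hiK : i ∈ K := K.pow_mem htK _
    have hiv : v * i * v⁻¹ = i⁻¹ := by rw [hidef, ← conj_pow, htv, inv_pow]
    have hi2 : i ^ 2 = t := by
      have h := congrArg Subtype.val (pow_card_eq_one' (x := (⟨t, htK⟩ : K)))
      rw [hm] at h
      rw [hidef, ← pow_mul, show (m + 1) * 2 = 2 * m + 1 + 1 by ring, pow_succ,
        show t ^ (2 * m + 1) = 1 from h, one_mul]
    have hc : i⁻¹ * s ∈ K ⊓ Subgroup.centralizer ({v} : Set G) := by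
      refine Subgroup.mem_inf.2 ⟨K.mul_mem (K.inv_mem hiK) hs,
        Subgroup.mem_centralizer_singleton_iff.2 ?_⟩
      have h1 : v * s * v⁻¹ = t⁻¹ * s := by rw [ht]; group
      have h2 : v * (i⁻¹ * s) * v⁻¹ = i⁻¹ * s := by
        rw [← conj_mul, h1, show v * i⁻¹ * v⁻¹ = (v * i * v⁻¹)⁻¹ by group, hiv, inv_inv, ← hi2]
        group
      exact (mul_inv_eq_iff_eq_mul.1 h2).symm
    exact ⟨(⟨i, hiK, hiv⟩, ⟨_, hc⟩), Subtype.ext (mul_inv_cancel_left i s)⟩

/-- Inside the elements inverted by `x`: those centralising `v` times those centralising `x * v`. -/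
theorem card_inv_mul_le {W K L : Subgroup G} (hW : Odd (Nat.card W)) {x v : G}
    (hK : K ≤ W) (hL : L ≤ W) (hKv : ∀ i ∈ K, v * i * v⁻¹ = i)
    (hLv : ∀ j ∈ L, x * v * j * (x * v)⁻¹ = j) (hx : x * x = 1) :
    Nat.card (Inv' x K) * Nat.card (Inv' x L) ≤ Nat.card (Inv' x W) := by
  have hxi : x⁻¹ = x := inv_eq_of_mul_eq_one_right hx
  have hLv' : ∀ j ∈ L, x * j * x⁻¹ = j⁻¹ → v * j * v⁻¹ = j⁻¹ := by
    intro j hj h
    calc v * j * v⁻¹ = x * ((x * v) * j * (x * v)⁻¹) * x⁻¹ := by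
          simp only [mul_inv_rev, hxi, mul_assoc]
          simp only [← mul_assoc, hx, one_mul]
          simp only [mul_assoc, hx, mul_one]
      _ = j⁻¹ := by rw [hLv j hj, h]
  rw [← Nat.card_prod]
  refine Nat.card_le_card_of_injective
    (fun q : Inv' x K × Inv' x L => (⟨(q.1 : G) * (q.2 : G) * (q.1 : G),
      W.mul_mem (W.mul_mem (hK q.1.2.1) (hL q.2.2.1)) (hK q.1.2.1), by
        rw [← conj_mul, ← conj_mul, q.1.2.2, q.2.2.2]; group⟩ : Inv' x W)) ?_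
  rintro ⟨⟨i, hi, hix⟩, ⟨j, hj, hjx⟩⟩ ⟨⟨i', hi', hix'⟩, ⟨j', hj', hjx'⟩⟩ h
  have h1 : i * j * i = i' * j' * i' := congrArg Subtype.val h
  have h2 : i * j⁻¹ * i = i' * j'⁻¹ * i' := by
    have := congrArg (fun z => v * z * v⁻¹) h1
    simpa [← conj_mul, hKv i hi, hKv i' hi', hLv' j hj hjx, hLv' j' hj' hjx'] using this
  have h3 : (i * j * i⁻¹) ^ 2 = (i' * j' * i'⁻¹) ^ 2 := by
    rw [pow_two, pow_two]
    calc i * j * i⁻¹ * (i * j * i⁻¹) = (i * j * i) * (i * j⁻¹ * i)⁻¹ := by simp [mul_assoc]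
      _ = (i' * j' * i') * (i' * j'⁻¹ * i')⁻¹ := by rw [h1, h2]
      _ = _ := by simp [mul_assoc]
  have h4 := eq_of_sq_eq hW (W.mul_mem (W.mul_mem (hK hi) (hL hj)) (W.inv_mem (hK hi)))
    (W.mul_mem (W.mul_mem (hK hi') (hL hj')) (W.inv_mem (hK hi'))) h3
  have h5 : i ^ 2 = i' ^ 2 := by
    rw [pow_two, pow_two]
    calc i * i = (i * j * i⁻¹)⁻¹ * (i * j * i) := by simp [mul_assoc]
      _ = (i' * j' * i'⁻¹)⁻¹ * (i' * j' * i') := by rw [h1, h4]
      _ = _ := by simp [mul_assoc]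
  obtain rfl := eq_of_sq_eq hW (hK hi) (hK hi') h5
  obtain rfl := mul_left_cancel (mul_right_cancel h1)
  rfl

end Cfsg.Agent.H92.S70
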