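import Cfsg.Agent.H92.S70.Data
import Cfsg.Agent.H42.ClassMult

/-!
# Pairs of involutions with product in a coset of the core of the centraliser
-/

set_option autoImplicit false
set_option linter.unusedSectionVars false

namespace Cfsg.Agent.H92.S70.Fifteen

open Cfsg Subgroup

universe u

variable {G : Type u} [Group G] [Fintype G] {P : Sylow 2 G} {x : G}

theorem theta_conj_mem (hD : Fifteen P x) {a : G} (ha : a ∈ (P : Subgroup G)) (ha1 : a ≠ 1)
    {b : G} (hb : b ∈ (P : Subgroup G)) {k : G} (hk : k ∈ theta a) : b * k * b⁻¹ ∈ theta a :=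
  hD.functor.1.2.2.1 a ha ha1 b hb k hk

theorem theta_inf (hD : Fifteen P x) {a b : G} (ha : a ∈ (P : Subgroup G)) (ha1 : a ≠ 1)
    (hb : b ∈ (P : Subgroup G)) (hb1 : b ≠ 1) : theta a ⊓ Cen b = theta b ⊓ Cen a :=
  le_antisymm
    (le_inf (hD.functor.1.2.2.2 a ha ha1 b hb hb1) (inf_le_left.trans (theta_le a)))
    (le_inf (hD.functor.1.2.2.2 b hb hb1 a ha ha1) (inf_le_left.trans (theta_le b)))

theorem card_inv_symm (hD : Fifteen P x) {a b : G} (ha : a ∈ (P : Subgroup G)) (ha1 : a ≠ 1)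
    (hb : b ∈ (P : Subgroup G)) (hb1 : b ≠ 1) :
    Nat.card (Inv' b (theta a)) = Nat.card (Inv' a (theta b)) := by
  have h1 := card_inv_mul (odd_card_theta a) (hD.sq b hb) fun k hk => hD.theta_conj_mem ha ha1 hb hk
  have h2 := card_inv_mul (odd_card_theta b) (hD.sq a ha) fun k hk => hD.theta_conj_mem hb hb1 ha hk
  rw [show theta a ⊓ centralizer ({b} : Set G) = theta b ⊓ centralizer ({a} : Set G) from
    hD.theta_inf ha ha1 hb hb1, hD.card_theta ha ha1] at h1
  rw [hD.card_theta hb hb1] at h2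
  exact Nat.eq_of_mul_eq_mul_right Nat.card_pos (h1.trans h2.symm)

/-- The key inequality for one four subgroup. -/
theorem sq_mul_le (hD : Fifteen P x) {v : G} (hv : v ∈ (P : Subgroup G)) (hv1 : v ≠ 1)
    (hvx : v ≠ x) :
    Nat.card (Inv' v (theta x)) ^ 2 * Nat.card (theta x) ≤ Nat.card (comp P) := by
  have hxv : x * v ∈ (P : Subgroup G) := mul_mem hD.mem hv
  have hxv1 : x * v ≠ 1 := fun h => hvx (by
    rw [eq_inv_of_mul_eq_one_right h, hD.inv_eq hD.mem])
  obtain ⟨hodd, hinf, hinv⟩ := hD.odd_card_comp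
  have hW := card_inv_mul hodd (hD.sq x hD.mem) (hinv x hD.mem)
  rw [show comp P ⊓ centralizer ({x} : Set G) = theta x from hinf x hD.mem hD.ne] at hW
  have heq : Nat.card (Inv' x (theta (x * v))) = Nat.card (Inv' v (theta x)) := by
    rw [← hD.card_inv_symm hD.mem hD.ne hxv hxv1]
    have h1 := card_inv_mul (odd_card_theta x) (hD.sq v hv) fun k hk =>
      hD.theta_conj_mem hD.mem hD.ne hv hk
    have h2 := card_inv_mul (odd_card_theta x) (hD.sq _ hxv) fun k hk =>
      hD.theta_conj_mem hD.mem hD.ne hxv hk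
    have hcap : theta x ⊓ centralizer ({x * v} : Set G) = theta x ⊓ centralizer ({v} : Set G) := by
      ext k
      simp only [mem_inf, mem_centralizer_singleton_iff]
      refine and_congr_right fun hk => ?_
      have hkx : k * x = x * k := mem_centralizer_singleton_iff.1 (theta_le x hk)
      rw [← mul_assoc, hkx, mul_assoc, mul_assoc, mul_right_inj]
    rw [hcap] at h2
    exact Nat.eq_of_mul_eq_mul_right Nat.card_pos (h2.trans h1.symm)
  have hcen : ∀ {a : G}, ∀ i ∈ theta a, a * i * a⁻¹ = i := fun {a} i hi =>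
    mul_inv_eq_iff_eq_mul.2 (mem_centralizer_singleton_iff.1 (theta_le a hi)).symm
  have hle := card_inv_mul_le hodd (x := x) (v := v) (theta_le_comp hv hv1)
    (theta_le_comp hxv hxv1) hcen hcen (hD.sq x hD.mem)
  rw [heq, ← hD.card_inv_symm hD.mem hD.ne hv hv1, ← pow_two] at hle
  calc _ ≤ Nat.card (Inv' x (comp P)) * Nat.card (theta x) := Nat.mul_le_mul_right _ hle
    _ = _ := hW

/-- The pairs with product in `x` times the core. -/
abbrev Pairs (x : G) : Type _ :=
  Σ k : theta x, {a : G // IsConj a x ∧ IsConj (a⁻¹ * (x * (k : G))) x}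

theorem sq_eq_one_of_conj (hD : Fifteen P x) {a : G} (ha : IsConj a x) : a * a = 1 := by
  obtain ⟨c, hc⟩ := isConj_iff.1 ha.symm
  rw [← hc, conj_mul, hD.sq x hD.mem, mul_one, mul_inv_cancel]

/-- The position of a pair. -/
theorem pair_form (hD : Fifteen P x) (q : Pairs x) :
    ∃ v : G, v ∈ (P : Subgroup G) ∧ v ≠ 1 ∧ v ≠ x ∧ ∃ i ∈ theta x, ∃ j ∈ theta x,
      v * i * v⁻¹ = i⁻¹ ∧ v * j * v⁻¹ = j⁻¹ ∧ (q.2 : G) = i * v ∧
        (q.1 : G) = v * i⁻¹ * j * v⁻¹ := by
  obtain ⟨⟨s, hs⟩, ⟨a, ha, hb⟩⟩ := q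
  have ha2 := hD.sq_eq_one_of_conj ha
  have hai : a⁻¹ = a := inv_eq_of_mul_eq_one_right ha2
  have hb2 := hD.sq_eq_one_of_conj hb
  have hb2' : a * (x * s) * (a * (x * s)) = 1 := by
    simp only [hai] at hb2
    exact hb2
  have hxi : x⁻¹ = x := hD.inv_eq hD.mem
  have hsx : Commute x s := (mem_centralizer_singleton_iff.1 (theta_le x hs)).symm
  have hinv : a * (x * s) * a⁻¹ = (x * s)⁻¹ := by
    rw [hai]
    exact eq_inv_of_mul_eq_one_left (by simpa [mul_assoc] using hb2')
  -- the odd power of the product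
  have hodd := odd_card_theta x
  set m := Nat.card (theta x) with hm
  have hsm : s ^ m = 1 := by
    have h := congrArg Subtype.val (pow_card_eq_one' (x := (⟨s, hs⟩ : theta x)))
    exact h
  have hxm : x ^ m = x := by
    obtain ⟨r, hr⟩ := hodd
    rw [hr, pow_succ, pow_mul, pow_two, hD.sq x hD.mem, one_pow, one_mul]
  have hpow : (x * s) ^ m = x := by rw [hsx.mul_pow, hxm, hsm, mul_one]
  have haC : a ∈ Cen x := by
    refine mem_centralizer_singleton_iff.2 (mul_inv_eq_iff_eq_mul.1 ?_)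
    rw [← hpow, ← conj_pow, hinv, inv_pow, hpow, hxi]
  obtain ⟨i, hi, v, hv, rfl⟩ := (hD.split hD.mem hD.ne).2 a haC
  have hvi : v⁻¹ = v := hD.inv_eq hv
  have hix : Commute x i := (mem_centralizer_singleton_iff.1 (theta_le x hi)).symm
  have hiv : v * i * v⁻¹ = i⁻¹ := by
    rw [hvi]
    exact eq_inv_of_mul_eq_one_right (by simpa [mul_assoc] using ha2)
  have hv1 : v ≠ 1 := by
    rintro rfl
    have hi2 := eq_one_of_odd_of_sq (odd_orderOf (odd_card_theta x) hi)
      (by simpa using ha2)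
    rw [hi2, one_mul] at ha
    exact hD.ne (isConj_one_left.1 ha.symm ▸ rfl)
  have hvx : v ≠ x := by
    rintro rfl
    have hi1 : i = 1 := by
      refine eq_one_of_odd_of_sq (odd_orderOf (odd_card_theta v) hi) ?_
      calc i * i = i * (v * v) * i := by rw [hD.sq v hD.mem, mul_one]
        _ = i * v * (v * i) := by simp [mul_assoc]
        _ = i * v * (i * v) := by rw [hix.eq]
        _ = 1 := ha2
    subst hi1
    have hbs : IsConj ((1 * v)⁻¹ * (v * s)) v := hb
    rw [show (1 * v)⁻¹ * (v * s) = s by simp] at hbs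
    have hs1 := eq_one_of_odd_of_sq (odd_orderOf (odd_card_theta v) hs)
      (hD.sq_eq_one_of_conj hbs)
    rw [hs1] at hbs
    exact hD.ne (isConj_one_right.1 hbs)
  refine ⟨v, hv, hv1, hvx, i, hi, i * (v * s * v⁻¹),
    mul_mem hi (hD.theta_conj_mem hD.mem hD.ne hv hs), hiv, ?_, rfl, ?_⟩
  · set j := i * (v * s * v⁻¹) with hj
    have hjx : Commute x j := (mem_centralizer_singleton_iff.1 (theta_le x
      (mul_mem hi (hD.theta_conj_mem hD.mem hD.ne hv hs)))).symm
    have hvx' : Commute x v := hD.comm x hD.mem v hv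
    have hb' : i * v * (x * s) = j * (v * x) := by
      calc i * v * (x * s) = i * v * (s * x) := by rw [hsx.eq]
        _ = j * (v * x) := by rw [hj]; simp [mul_assoc]
    rw [hb'] at hb2'
    rw [hvi]
    refine eq_inv_of_mul_eq_one_right ?_
    calc j * (v * j * v) = j * v * (j * x) * (v * x) := by
          rw [show j * v * (j * x) * (v * x) = j * v * j * (x * v) * x by simp [mul_assoc],
            hvx'.eq, show j * v * j * (v * x) * x = j * (v * j * v) * (x * x) by simp [mul_assoc],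
            hD.sq x hD.mem, mul_one]
      _ = j * (v * x) * (j * (v * x)) := by rw [← hjx.eq]; simp [mul_assoc]
      _ = 1 := hb2'
  · have hvv : ∀ c : G, v * (v * c) = c := fun c => by rw [← mul_assoc, hD.sq v hv, one_mul]
    simp [mul_assoc, hvi, hvv, hD.sq v hv]

/-- The number of pairs. -/
theorem card_pairs_mul_le (hD : Fifteen P x) :
    Nat.card (Pairs x) * Nat.card (theta x) ≤ 14 * Nat.card (comp P) := by
  classical
  haveI : Fintype (P : Subgroup G) := Fintype.ofFinite _
  let V : Finset G := ((Finset.univ : Finset G).filter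
    (fun v => v ∈ (P : Subgroup G))).erase 1 |>.erase x
  have hV : V.card = 14 := by
    have h : ((Finset.univ : Finset G).filter (fun v => v ∈ (P : Subgroup G))).card = 16 := by
      rw [← Fintype.card_subtype, ← Nat.card_eq_fintype_card]
      exact hD.card
    rw [Finset.card_erase_of_mem, Finset.card_erase_of_mem, h]
    · simp
    · simp [hD.ne, hD.mem]
  have hVm : ∀ v ∈ V, v ∈ (P : Subgroup G) ∧ v ≠ 1 ∧ v ≠ x := by
    intro v hv
    simp only [V, Finset.mem_erase, Finset.mem_filter, Finset.mem_univ, true_and] at hv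
    exact ⟨hv.2.2, hv.2.1, hv.1⟩
  choose v hv hv1 hvx i hi j hj hiv hjv ha hk using hD.pair_form
  let f : Pairs x → Σ t : V, Inv' (t : G) (theta x) × Inv' (t : G) (theta x) := fun q =>
    ⟨⟨v q, by simp [V, hv q, hv1 q, hvx q]⟩, ⟨i q, hi q, hiv q⟩, ⟨j q, hj q, hjv q⟩⟩
  have hinj : Function.Injective f := by
    intro q r h
    have h' := congrArg (fun z : Σ t : V, Inv' (t : G) (theta x) × Inv' (t : G) (theta x) =>
      ((z.1 : G), (z.2.1 : G), (z.2.2 : G))) h
    simp only [f, Prod.mk.injEq] at h'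
    obtain ⟨e1, e2, e3⟩ := h'
    refine Sigma.subtype_ext (Subtype.ext ?_) ?_
    · rw [hk q, hk r, e1, e2, e3]
    · rw [ha q, ha r, e1, e2]
  calc Nat.card (Pairs x) * Nat.card (theta x)
      ≤ Nat.card (Σ t : V, Inv' (t : G) (theta x) × Inv' (t : G) (theta x)) *
        Nat.card (theta x) := Nat.mul_le_mul_right _ (Nat.card_le_card_of_injective f hinj)
    _ = ∑ t : V, Nat.card (Inv' (t : G) (theta x)) ^ 2 * Nat.card (theta x) := by
        rw [Nat.card_sigma, Finset.sum_mul]
        exact Finset.sum_congr rfl fun t _ => by rw [Nat.card_prod, pow_two]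
    _ ≤ ∑ _t : V, Nat.card (comp P) := Finset.sum_le_sum fun t _ =>
        hD.sq_mul_le (hVm t t.2).1 (hVm t t.2).2.1 (hVm t t.2).2.2
    _ = _ := by rw [Finset.sum_const, Finset.card_univ, Fintype.card_coe, hV, smul_eq_mul]

theorem card_pairs_eq_sum [Fintype (theta x)] :
    Nat.card (Pairs x) = ∑ k : theta x, H42.pairCount x x (x * (k : G)) := Nat.card_sigma

end Cfsg.Agent.H92.S70.Fifteen
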